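import Cfsg.Agent.Y7.Code

/-! A seven-cycle and a five-cycle generate a three-cycle. -/

set_option autoImplicit false

namespace R4

theorem chk7 : Y7.all7 (fun c => decide (Y7.mvC c = 5 → Y7.powC c 5 = 1754760 → ∃ i ∈ Y7.R7, ∃ j ∈ Y7.R7,
    Y7.mvC (Y7.powC (Y7.mulC (Y7.mulC (Y7.powC 219345 i) c) (Y7.mulC (Y7.powC 219345 j) c)) 2) = 3)) = true := by
  decide +kernel

end R4
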